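import Cfsg.Agent.H578.RC.Lin4

/-!
# S3510, row F, box E7: planes, long root elements, the semisimple part (helper578)
-/

set_option autoImplicit false
open Cfsg

namespace Cfsg.Agent.H578.RC

open QuadraticMap MulAction
open Cfsg.Agent.LieClassical Cfsg.Agent.LieClassical.OrthCore Cfsg.Agent.LieClassical.OrthTrans
open Cfsg.Agent.LieClassical.OrthSimple Cfsg.Agent.ClassicalGeometry.OrthSemi
open Cfsg.Agent.ClassicalGeometry.OrthAut1 Cfsg.Agent.H106.RC Cfsg.Agent.H93.RC Cfsg.Agent.H138.RC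

section lin

variable {F V : Type*} [Field F] [CharP F 2] [AddCommGroup V] [Module F V] {Q : QuadraticForm F V}

/-- a nontrivial action of prime order on a space over `F_2` -/
theorem nt_fpf {T : V ≃ₗ[F] V} {r : ℕ} (hr : Odd r) (hTr : T ^ r = 1) {W : Submodule F V}
    (hW : ∀ v ∈ W, T v ∈ W) :
    Fpf T (Xs T W) ∧ (∀ v ∈ Xs T W, T v ∈ Xs T W) ∧ Xs T W ≤ W ∧ (Nt T W → Xs T W ≠ ⊥) := by
  refine ⟨?_, Xs_inv (fun v => rfl) hW, Xs_le hW, ?_⟩
  · rintro _ ⟨v, hv, rfl⟩ h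
    rw [dl_apply] at h ⊢
    rw [eq_of_unip hr hTr h, sub_self]
  · rintro ⟨v, hv, h1⟩ h2
    rw [Xs_eq_bot] at h2
    exact h1 (h2 v hv)

theorem nd_Xs [FiniteDimensional F V] {T : V ≃ₗ[F] V} (hT : T ∈ O Q) {r : ℕ} (hr : Odd r) (hTr : T ^ r = 1)
    {W : Submodule F V} (hW : ∀ v ∈ W, T v ∈ W) (hWn : Nondeg (Q.comp W.subtype)) :
    Nondeg (Q.comp (Xs T W).subtype) := by
  rw [nondeg_iff, eq_bot_iff]
  rintro v ⟨hv, hv'⟩
  have hvW : v ∈ W := Xs_le hW hv
  -- `T v = v`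
  have h1 : T v = v := by
    have h2 : T v - v ∈ W ⊓ pp Q W := by
      refine ⟨W.sub_mem (hW v hvW) hvW, fun w hw => ?_⟩
      obtain ⟨w, hw', rfl⟩ := surj_on hW hw
      have h3 := hv' (T w - w) ⟨w, hw', rfl⟩
      rw [polar_sub_left] at h3
      rw [polar_sub_right, polar_map hT, ← neg_sub, h3, neg_zero]
    rw [(nondeg_iff W).1 hWn] at h2
    exact sub_eq_zero.1 h2
  exact (nt_fpf hr hTr hW).1 v hv h1

end lin

variable {F V G Ω : Type} [Field F] [Finite F] [CharP F 2] [AddCommGroup V] [Module F V] [FiniteDimensional F V]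
  [Group G] [Finite G] [MulAction G Ω] [Nonempty Ω]
  {Q : QuadraticForm F V} {N : Subgroup G} {ρ : ↥(E Q) →* G} {ι : Type} [Finite ι] {x : ι → G}
  {M : ι → Gam Q} {X : ι → V ≃ₗ[F] V} {r : ι → ℕ}

/-- **no invariant totally singular plane** for `2'`-families -/
theorem FC.no_plane (h : FC Q Ω N ρ x M X r) (hp : ∀ i, r i ≠ 2) {L : Submodule F V} (hL : ∀ v ∈ L, Q v = 0)
    (h2 : Module.finrank F L = 2) (hinv : ∀ i, ∀ v ∈ L, X i v ∈ L) : False := by
  obtain ⟨u, hu, w, hw, hu0, hind, hs⟩ := exists_pair h2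
  have huw : polar Q u w = 0 := by
    rw [polar, hL _ (L.add_mem hu hw), hL u hu, hL w hw]; simp
  exact h.cv.no_plane hp (hL u hu) (hL w hw) huw hu0 hind (by rw [hs]; exact hinv)

/-- **no long root element** of an invariant plane in the family -/
theorem FC.no_long (h : FC Q Ω N ρ x M X r) (i₀ : ι) (hp : ∀ i, i ≠ i₀ → r i ≠ 2) {u w : V} (hu : Q u = 0)
    (hw : Q w = 0) (huw : polar Q u w = 0) (hu0 : u ≠ 0) (hind : ∀ a : F, w ≠ a • u)
    (hX : ∀ v, X i₀ v = siegel Q u w hu huw v)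
    (hinv : ∀ i, i ≠ i₀ → ∀ v ∈ Submodule.span F {u, w}, X i v ∈ Submodule.span F {u, w}) : False := by
  have hx : x i₀ = ρ (AutOrth.SemiSim.sg Q u w hu huw) := by
    have h1 : Lf ρ (x i₀ * (ρ (AutOrth.SemiSim.sg Q u w hu huw))⁻¹) (M i₀ * (tg Q (AutOrth.SemiSim.sg Q u w hu huw))⁻¹) :=
      (h.cv.lf i₀).mul (Lf.tg _).inv
    have h2 : IsScal (M i₀ * (tg Q (AutOrth.SemiSim.sg Q u w hu huw))⁻¹) := by
      refine ⟨1, one_ne_zero, fun v => ?_⟩
      obtain ⟨v, rfl⟩ := (tg Q (AutOrth.SemiSim.sg Q u w hu huw)).1.surjective v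
      have h3 : (M i₀ * (tg Q (AutOrth.SemiSim.sg Q u w hu huw))⁻¹).1 ((tg Q (AutOrth.SemiSim.sg Q u w hu huw)).1 v) =
          (M i₀).1 v := by
        show (M i₀).1 ((tg Q (AutOrth.SemiSim.sg Q u w hu huw)).1⁻¹ ((tg Q (AutOrth.SemiSim.sg Q u w hu huw)).1 v)) = _
        rw [inv_apply]
      rw [h3, one_smul, h.cv.lin, hX]; rfl
    rw [← h1.eq_one_iff h.cv.good h.cv.env h.cv.rep] at h2
    exact mul_inv_eq_one.1 h2
  refine h.cv.no_lr {i | i ≠ i₀} (fun i hi => hp i hi) hu hw huw hu0 hind (fun i hi => hinv i hi) ?_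
  intro ω
  obtain ⟨i, hi⟩ := h.cv.cov ω
  by_cases h1 : i = i₀
  · subst h1
    left; rw [← hx]; exact hi
  · right; exact ⟨i, h1, hi⟩

/-- the powers of the lifts -/
theorem FC.pow_one (h : FC Q Ω N ρ x M X r) (i : ι) : X i ^ r i = 1 := by
  obtain ⟨a, -, ha⟩ := h.cv.pow_scal i
  have h1 : X i ^ r i ∈ O Q := (O Q).pow_mem (h.iso i) _
  have := h.cv.nt
  have hnt : Nondeg (Q.comp (⊤ : Submodule F V).subtype) := by
    rw [nondeg_iff, eq_bot_iff]
    rintro v ⟨-, hv⟩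
    exact h.cv.good.nondeg v fun y => by rw [polar_comm]; exact hv y trivial
  have h2 := scal_one h1 hnt (by
    obtain ⟨v, hv⟩ := exists_ne (0 : V)
    intro h3
    exact hv ((Submodule.mem_bot F).1 (h3 ▸ Submodule.mem_top))) (fun v _ => ha v)
  ext v
  rw [ha, h2, one_smul]; rfl

theorem FC.X_ne (h : FC Q Ω N ρ x M X r) (i : ι) : X i ≠ 1 := by
  intro h1
  apply h.cv.not_scal i 1
  intro v
  rw [h1, one_smul]; rfl

theorem FC.cm (h : FC Q Ω N ρ x M X r) (i j : ι) (v : V) : X i (X j v) = X j (X i v) :=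
  LinearEquiv.congr_fun (h.cv.commX i j) v

/-- the involution -/
theorem FC.inv2 (h : FC Q Ω N ρ x M X r) {i₀ : ι} (h2 : r i₀ = 2) : Inv2 Q (X i₀) := by
  refine ⟨h.iso i₀, fun v => ?_⟩
  have h1 := h.pow_one i₀
  rw [h2] at h1
  exact LinearEquiv.congr_fun h1 v

theorem FC.odd (h : FC Q Ω N ρ x M X r) {i : ι} (h2 : r i ≠ 2) : Odd (r i) := (h.cv.prime i).odd_of_ne_two h2

theorem FC.nondeg (h : FC Q Ω N ρ x M X r) : Nondeg Q := h.cv.good.nondeg

/-- nontrivial on `V`, trivial on `W`: nontrivial on the orthogonal space -/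
theorem FC.nt_pp (h : FC Q Ω N ρ x M X r) {i : ι} {W : Submodule F V} (hW : Nondeg (Q.comp W.subtype))
    (h1 : ¬ Nt (X i) W) : Nt (X i) (pp Q W) := by
  by_contra h2
  rw [not_Nt] at h1 h2
  exact h.X_ne i (ext_dec h.nondeg hW h1 h2)

/-- the generator of the semisimple part -/
theorem FC.exists_s (h : FC Q Ω N ρ x M X r) (hinj : Function.Injective r) (i₀ : ι) (h2 : r i₀ = 2) :
    ∃ (s : V ≃ₗ[F] V) (m : ℕ), s ∈ O Q ∧ Odd m ∧ s ^ m = 1 ∧ (∀ i v, X i (s v) = s (X i v)) ∧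
      (∀ v, s v = v ↔ ∀ j, j ≠ i₀ → X j v = v) := by
  classical
  have : Finite V := Module.finite_of_finite F
  have : Finite (V ≃ₗ[F] V) := Finite.of_injective (fun e : V ≃ₗ[F] V => (e : V → V)) DFunLike.coe_injective
  let J := {j : ι // j ≠ i₀}
  obtain ⟨g, hg, hgz⟩ := exists_gen (fun j : J => X j.1) (fun j : J => r j.1) (fun j => h.cv.prime _)
    (fun i j hij => Subtype.ext (hinj hij)) (fun j => h.pow_one _) (fun i j => h.cv.commX _ _)
  obtain ⟨a, m, hm, hgm⟩ := Nat.exists_eq_two_pow_mul_odd (orderOf_pos g).ne'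
  have hcl : Subgroup.closure (Set.range fun j : J => X j.1) ≤ O Q := by
    rw [Subgroup.closure_le]
    rintro _ ⟨j, rfl⟩
    exact h.iso _
  have hcomm : ∀ t ∈ Subgroup.closure (Set.range fun j : J => X j.1), ∀ i, Commute (X i) t := by
    intro t ht i
    induction ht using Subgroup.closure_induction with
    | mem y hy =>
      obtain ⟨j, rfl⟩ := hy
      exact h.cv.commX _ _
    | one => exact Commute.one_right _
    | mul a b _ _ ha hb => exact ha.mul_right hb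
    | inv a _ ha => exact ha.inv_right
  have hs : g ^ (2 ^ a) ∈ Subgroup.closure (Set.range fun j : J => X j.1) := Subgroup.pow_mem _ hg _
  have hodd : ∀ j : J, r j.1 ≠ 2 := fun j h3 => j.2 (hinj (h3.trans h2.symm))
  have hXs : ∀ j : J, X j.1 ∈ Subgroup.zpowers (g ^ (2 ^ a)) := by
    intro j
    obtain ⟨k, hk⟩ := Subgroup.mem_zpowers_iff.1 (hgz j)
    have hk' : g ^ k = X j.1 := hk
    have hcop : Nat.Coprime (2 ^ a) (r j.1) := by
      apply Nat.Coprime.pow_left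
      exact (Nat.coprime_primes Nat.prime_two (h.cv.prime _)).2 (Ne.symm (hodd j))
    obtain ⟨b, hb⟩ := Nat.exists_mul_mod_eq_one_of_coprime hcop (h.cv.prime _).one_lt
    have h3 : X j.1 ^ (2 ^ a * b) = X j.1 := by
      conv_rhs => rw [← _root_.pow_one (X j.1)]
      rw [pow_eq_pow_iff_modEq]
      have h4 : orderOf (X j.1) ∣ r j.1 := orderOf_dvd_of_pow_eq_one (h.pow_one _)
      refine Nat.ModEq.of_dvd h4 ?_
      rw [Nat.ModEq, hb.2, Nat.mod_eq_of_lt (h.cv.prime _).one_lt]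
    rw [Subgroup.mem_zpowers_iff]
    refine ⟨k * b, ?_⟩
    rw [← h3, ← hk', ← zpow_natCast, ← zpow_natCast, ← zpow_mul, ← zpow_mul]
    congr 1
    push_cast
    ring
  refine ⟨g ^ (2 ^ a), m, hcl hs, hm, ?_, fun i v => LinearEquiv.congr_fun (hcomm _ hs i) v, ?_⟩
  · rw [← pow_mul, ← hgm, pow_orderOf_eq_one]
  · intro v
    constructor
    · intro hv j hj
      obtain ⟨k, hk⟩ := Subgroup.mem_zpowers_iff.1 (hXs ⟨j, hj⟩)
      have hk' : (g ^ (2 ^ a)) ^ k = X j := hk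
      rw [← hk']
      have hst : g ^ (2 ^ a) ∈ MulAction.stabilizer (V ≃ₗ[F] V) v := hv
      exact (MulAction.stabilizer (V ≃ₗ[F] V) v).zpow_mem hst k
    · intro hv
      have hle : Subgroup.closure (Set.range fun j : J => X j.1) ≤ MulAction.stabilizer (V ≃ₗ[F] V) v := by
        rw [Subgroup.closure_le]
        rintro _ ⟨j, rfl⟩
        exact hv j.1 j.2
      exact hle hs

/-- all the semisimple members are trivial on `Cf s`; if `u` is trivial on all `Cm (X j)`, it is on `Cm s` -/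
theorem FC.u_Cm_s (h : FC Q Ω N ρ x M X r) {i₀ : ι} {s : V ≃ₗ[F] V} (hs : s ∈ O Q)
    (hsX : ∀ v, s v = v ↔ ∀ j, j ≠ i₀ → X j v = v)
    (hu : ∀ j, j ≠ i₀ → ¬ Nt (X i₀) (Cm (X j))) : ¬ Nt (X i₀) (Cm s) := by
  rw [not_Nt]
  have h1 : Cm s ≤ pp Q (pp Q (Cf (X i₀))) := by
    rw [← pp_Cf h.nondeg hs]
    apply pp_anti
    intro v hv
    rw [mem_Cf, hsX]
    intro j hj
    rw [← mem_Cf, ← Cm_eq h.nondeg (h.iso j)]
    refine (pp_anti ?_ : pp Q (Cf (X i₀)) ≤ pp Q (Cm (X j))) hv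
    intro w hw
    rw [mem_Cf]
    exact (not_Nt.1 (hu j hj)) w hw
  rw [pp_pp h.nondeg] at h1
  intro v hv
  exact mem_Cf.1 (h1 hv)

end Cfsg.Agent.H578.RC
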